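import Cfsg.Agent.ChevalleyStructure.E6Min.Adjoint
import Cfsg.Agent.H163.E65.Defs

/-!
# S3650: Frobenius subgroups of `E₆(5)`, general part (helper65)

`frob_of`: root indices `r j` with `N_{r i} N_{r j} = 0`, an element `z` of prime order `p` of the group `Zgrp` on the
27-dimensional module acting on the span of the `N_{r j}` without fixed points: a subgroup `5 ^ n` of `E₆(5)` and an
element of order `p` acting on it fixed point freely.
`ofN` : 27 × 27 matrices over `ZMod 5` packed in natural numbers, with checks for products.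
-/

set_option autoImplicit false

namespace Cfsg.Agent.H65.E65

open Cfsg.Lie Cfsg.Agent.H163.E65 Cfsg.Agent.ChevalleyStructure.E6Min.Tables
  Cfsg.Agent.ChevalleyStructure.E6Min.Basic Cfsg.Agent.ChevalleyStructure.E6Min.Adjoint
open scoped Matrix MatrixGroups

/-- an element of prime order commutes with everything one of its nontrivial powers commutes with -/
theorem commute_of_pow {G : Type*} [Group G] {z a : G} {p i : ℕ} (hp : p.Prime) (hord : orderOf z = p)
    (hi0 : 0 < i) (hip : i < p) (h : z ^ i * a = a * z ^ i) : z * a = a * z := by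
  have hcop : i.Coprime p := by
    rw [Nat.coprime_comm]
    exact (Nat.Prime.coprime_iff_not_dvd hp).mpr (fun hd => absurd (Nat.le_of_dvd hi0 hd) (by omega))
  obtain ⟨k, hk⟩ := exists_pow_eq_self_of_coprime (x := z) (n := i) (by rw [hord]; exact hcop)
  have h1 : Commute (z ^ i) a := h
  have h2 := h1.pow_left k
  rw [hk] at h2
  exact h2.eq

/-- the abstract form: a homomorphism with central kernel -/
theorem frob_abs {Z L W : Type*} [Group Z] [Group L] [Group W] (f : Z →* L) (hf : f.ker = Subgroup.center Z)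
    (φ : W →* Z) (hφ : Function.Injective φ) {p : ℕ} (hp : p.Prime) (z : Z) (hz : z ^ p = 1) (T : W → W)
    (hT : ∀ w, z * φ w = φ (T w) * z) (hfree : ∀ w, T w = w → w = 1) {w₀ : W} (hw₀ : w₀ ≠ 1) :
    ∃ (A : Subgroup L) (y : L), Nat.card A = Nat.card W ∧ orderOf y = p ∧ (∀ a ∈ A, y * a * y⁻¹ ∈ A) ∧
      ∀ i, 0 < i → i < p → ∀ a ∈ A, y ^ i * a = a * y ^ i → a = 1 := by
  have hcz : ∀ w, z * φ w = φ w * z → w = 1 := by
    intro w h
    rw [hT] at h
    exact hfree w (hφ (mul_right_cancel h))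
  have hadinj : ∀ w, f (φ w) = 1 → w = 1 := by
    intro w h
    have h1 : φ w ∈ Subgroup.center Z := by rw [← hf]; exact h
    exact hcz w (Subgroup.mem_center_iff.mp h1 z)
  have hψ : Function.Injective (f.comp φ) := (injective_iff_map_eq_one (f.comp φ)).mpr hadinj
  have hconj : ∀ w, f z * (f.comp φ) w * (f z)⁻¹ = (f.comp φ) (T w) := by
    intro w
    rw [mul_inv_eq_iff_eq_mul, MonoidHom.comp_apply, MonoidHom.comp_apply, ← map_mul, hT, map_mul]
  have hord : orderOf (f z) = p := by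
    have : Fact p.Prime := ⟨hp⟩
    apply orderOf_eq_prime
    · rw [← map_pow, hz, map_one]
    · intro h
      have h1 : z ∈ Subgroup.center Z := by rw [← hf]; exact h
      exact hw₀ (hcz w₀ (Subgroup.mem_center_iff.mp h1 _).symm)
  refine ⟨(f.comp φ).range, f z, (Nat.card_congr (MonoidHom.ofInjective hψ).toEquiv).symm, hord, ?_, ?_⟩
  · rintro _ ⟨w, rfl⟩
    rw [hconj]
    exact ⟨_, rfl⟩
  · rintro i hi0 hip _ ⟨w, rfl⟩ h
    have h4 := commute_of_pow hp hord hi0 hip h
    have h5 : (f.comp φ) w = (f.comp φ) (T w) := by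
      rw [← hconj w, h4, mul_inv_cancel_right]
    rw [hfree w (hψ h5).symm, map_one]

section general

variable {n : ℕ} (r : Fin n → ℕ)

/-- the combination of the `N_{r j}` -/
def lin (v : Fin n → ZMod 5) : Matrix I27 I27 (ZMod 5) := ∑ j, v j • Nm (ZMod 5) (r j)

theorem lin_add (v w : Fin n → ZMod 5) : lin r (v + w) = lin r v + lin r w := by
  unfold lin
  rw [← Finset.sum_add_distrib]
  exact Finset.sum_congr rfl fun j _ => by rw [Pi.add_apply, add_smul]

theorem lin_zero : lin r 0 = 0 := by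
  unfold lin
  exact Finset.sum_eq_zero fun j _ => by rw [Pi.zero_apply, zero_smul]

theorem lin_neg (v : Fin n → ZMod 5) : lin r (-v) = - lin r v := by
  rw [eq_neg_iff_add_eq_zero, ← lin_add, neg_add_cancel, lin_zero]

theorem lin_single (j : Fin n) (c : ZMod 5) : lin r (Pi.single j c) = c • Nm (ZMod 5) (r j) := by
  unfold lin
  rw [Finset.sum_eq_single j]
  · rw [Pi.single_eq_same]
  · intro i _ hi
    rw [Pi.single_eq_of_ne hi, zero_smul]
  · intro h; exact absurd (Finset.mem_univ _) h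

variable {r}

theorem lin_mul_lin (h0 : ∀ i j, Nm (ZMod 5) (r i) * Nm (ZMod 5) (r j) = 0) (v w : Fin n → ZMod 5) :
    lin r v * lin r w = 0 := by
  unfold lin
  rw [Finset.sum_mul]
  refine Finset.sum_eq_zero fun i _ => ?_
  rw [Finset.mul_sum]
  refine Finset.sum_eq_zero fun j _ => ?_
  rw [smul_mul_assoc, mul_smul_comm, h0, smul_zero, smul_zero]

theorem lin_injective (hr : ∀ j, r j < 72) (hinj : Function.Injective r) : Function.Injective (lin r) := by
  have key : ∀ v j, lin r v (row (r j)) (sr (r j) (row (r j))) = v j * ((sg (r j) (row (r j)) : ℤ) : ZMod 5) := by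
    intro v j
    obtain ⟨-, -, h3⟩ := row_spec (hr j)
    unfold lin
    rw [Matrix.sum_apply, Finset.sum_eq_single j]
    · rw [Matrix.smul_apply, Nm_apply, if_pos rfl, smul_eq_mul]
    · intro i _ hi
      rw [Matrix.smul_apply, Nm_apply]
      rcases h3 (r i) (hr i) (fun e => hi (hinj e)) with h | h
      · rw [h]; simp
      · rw [if_neg (Ne.symm h), smul_zero]
    · intro h; exact absurd (Finset.mem_univ _) h
  intro v w h
  funext j
  have h1 := key v j
  rw [h, key w j] at h1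
  have h2 : ((sg (r j) (row (r j)) : ℤ) : ZMod 5) * ((sg (r j) (row (r j)) : ℤ) : ZMod 5) = 1 := by
    rw [← Int.cast_mul, sg_sq _ _ (row_spec (hr j)).1, Int.cast_one]
  calc v j = v j * ((sg (r j) (row (r j)) : ℤ) : ZMod 5) * ((sg (r j) (row (r j)) : ℤ) : ZMod 5) := by
        rw [mul_assoc, h2, mul_one]
    _ = w j * ((sg (r j) (row (r j)) : ℤ) : ZMod 5) * ((sg (r j) (row (r j)) : ℤ) : ZMod 5) := by rw [h1]
    _ = w j := by rw [mul_assoc, h2, mul_one]

theorem one_add_lin_mul (h0 : ∀ i j, Nm (ZMod 5) (r i) * Nm (ZMod 5) (r j) = 0) (v w : Fin n → ZMod 5) :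
    (1 + lin r v) * (1 + lin r w) = 1 + lin r (v + w) := by
  rw [mul_add, add_mul, add_mul, lin_mul_lin h0, lin_add]
  simp only [one_mul, mul_one]
  abel

/-- the element `1 + ∑ v_j N_{r j}` -/
def phiU (h0 : ∀ i j, Nm (ZMod 5) (r i) * Nm (ZMod 5) (r j) = 0) (v : Fin n → ZMod 5) : GL I27 (ZMod 5) :=
  ⟨1 + lin r v, 1 + lin r (-v), by rw [one_add_lin_mul h0, add_neg_cancel, lin_zero, add_zero], by
    rw [one_add_lin_mul h0, neg_add_cancel, lin_zero, add_zero]⟩

theorem phiU_add (h0 : ∀ i j, Nm (ZMod 5) (r i) * Nm (ZMod 5) (r j) = 0) (v w : Fin n → ZMod 5) :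
    phiU h0 (v + w) = phiU h0 v * phiU h0 w := by
  apply Units.ext
  exact (one_add_lin_mul h0 v w).symm

theorem phiU_zero (h0 : ∀ i j, Nm (ZMod 5) (r i) * Nm (ZMod 5) (r j) = 0) : phiU h0 0 = 1 := by
  apply Units.ext
  show 1 + lin r 0 = 1
  rw [lin_zero, add_zero]

theorem phiU_mem (hr : ∀ j, r j < 72) (h0 : ∀ i j, Nm (ZMod 5) (r i) * Nm (ZMod 5) (r j) = 0)
    (v : Fin n → ZMod 5) : phiU h0 v ∈ Zgrp (ZMod 5) := by
  have h1 : ∀ s : Finset (Fin n), phiU h0 (∑ j ∈ s, Pi.single j (v j)) ∈ Zgrp (ZMod 5) := by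
    classical
    intro s
    induction s using Finset.induction_on with
    | empty => rw [Finset.sum_empty, phiU_zero]; exact one_mem _
    | insert j s hj ih =>
      rw [Finset.sum_insert hj, phiU_add]
      refine mul_mem ?_ ih
      have : phiU h0 (Pi.single j (v j)) = zU (r j) (v j) := by
        apply Units.ext
        rw [coe_zU (hr j), zM_def]
        show 1 + lin r (Pi.single j (v j)) = _
        rw [lin_single]
      rw [this]
      exact zU_mem _ _
  have h2 := h1 Finset.univ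
  rwa [Finset.univ_sum_single] at h2

/-- the homomorphism to `Zgrp` -/
def phi (hr : ∀ j, r j < 72) (h0 : ∀ i j, Nm (ZMod 5) (r i) * Nm (ZMod 5) (r j) = 0) :
    Multiplicative (Fin n → ZMod 5) →* Zgrp (ZMod 5) where
  toFun v := ⟨phiU h0 (Multiplicative.toAdd v), phiU_mem hr h0 _⟩
  map_one' := Subtype.ext (phiU_zero h0)
  map_mul' _ _ := Subtype.ext (phiU_add h0 _ _)

theorem lin_conj {z : Matrix I27 I27 (ZMod 5)} {M : Matrix (Fin n) (Fin n) (ZMod 5)}
    (hM : ∀ j, z * Nm (ZMod 5) (r j) = lin r (fun i => M i j) * z) (v : Fin n → ZMod 5) :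
    z * lin r v = lin r (M *ᵥ v) * z := by
  have h1 : lin r (M *ᵥ v) = ∑ j, v j • lin r (fun i => M i j) := by
    unfold lin
    simp only [Finset.smul_sum]
    rw [Finset.sum_comm]
    refine Finset.sum_congr rfl fun i _ => ?_
    simp only [smul_smul]
    rw [← Finset.sum_smul]
    congr 1
    simp only [Matrix.mulVec, dotProduct]
    exact Finset.sum_congr rfl fun j _ => mul_comm _ _
  rw [h1, Finset.sum_mul]
  conv_lhs => unfold lin
  rw [Finset.mul_sum]
  refine Finset.sum_congr rfl fun j _ => ?_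
  rw [mul_smul_comm, hM, smul_mul_assoc]

/-- **Frobenius subgroups** -/
theorem frob_of {p : ℕ} (hp : p.Prime) (hr : ∀ j, r j < 72) (hinj : Function.Injective r)
    (h0 : ∀ i j, Nm (ZMod 5) (r i) * Nm (ZMod 5) (r j) = 0) (hn : 0 < n) (z : Zgrp (ZMod 5)) (hz : z ^ p = 1)
    (M M' : Matrix (Fin n) (Fin n) (ZMod 5))
    (hM : ∀ j, ((z : GL I27 (ZMod 5)) : Matrix I27 I27 (ZMod 5)) * Nm (ZMod 5) (r j) =
      lin r (fun i => M i j) * ((z : GL I27 (ZMod 5)) : Matrix I27 I27 (ZMod 5)))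
    (hM' : M' * (M - 1) = 1) :
    ∃ (A : Subgroup L5) (z : L5), Nat.card A = 5 ^ n ∧ orderOf z = p ∧ (∀ a ∈ A, z * a * z⁻¹ ∈ A) ∧
      ∀ i, 0 < i → i < p → ∀ a ∈ A, z ^ i * a = a * z ^ i → a = 1 := by
  have hfree : ∀ v, M *ᵥ v = v → v = 0 := by
    intro v hv
    have h1 : (M - 1) *ᵥ v = 0 := by rw [Matrix.sub_mulVec, Matrix.one_mulVec, hv, sub_self]
    calc v = (1 : Matrix (Fin n) (Fin n) (ZMod 5)) *ᵥ v := (Matrix.one_mulVec v).symm
      _ = M' *ᵥ ((M - 1) *ᵥ v) := by rw [Matrix.mulVec_mulVec, hM']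
      _ = 0 := by rw [h1, Matrix.mulVec_zero]
  -- conjugation in `Zgrp`
  have hconj : ∀ v, z * phi hr h0 v = phi hr h0 (Multiplicative.ofAdd (M *ᵥ (Multiplicative.toAdd v))) * z := by
    intro v
    apply Subtype.ext
    apply Units.ext
    show ((z : GL I27 (ZMod 5)) : Matrix I27 I27 (ZMod 5)) * (1 + lin r (Multiplicative.toAdd v)) =
      (1 + lin r (M *ᵥ (Multiplicative.toAdd v))) * ((z : GL I27 (ZMod 5)) : Matrix I27 I27 (ZMod 5))
    rw [mul_add, add_mul, mul_one, one_mul, lin_conj hM]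
  have hphi : Function.Injective (phi hr h0) := by
    intro v w h
    have h1 : 1 + lin r (Multiplicative.toAdd v) = 1 + lin r (Multiplicative.toAdd w) :=
      congrArg (fun g : Zgrp (ZMod 5) => ((g : GL I27 (ZMod 5)) : Matrix I27 I27 (ZMod 5))) h
    exact lin_injective hr hinj (add_left_cancel h1)
  have hw₀ : (Multiplicative.ofAdd (Pi.single ⟨0, hn⟩ 1) : Multiplicative (Fin n → ZMod 5)) ≠ 1 := by
    intro h2
    have h3 : (Pi.single ⟨0, hn⟩ 1 : Fin n → ZMod 5) ⟨0, hn⟩ = 0 := congrFun h2 ⟨0, hn⟩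
    rw [Pi.single_eq_same] at h3
    exact absurd h3 (by decide)
  obtain ⟨A, y, h1, h2⟩ := frob_abs (ad (ZMod 5)) ker_ad (phi hr h0) hphi hp z hz
    (fun v => Multiplicative.ofAdd (M *ᵥ (Multiplicative.toAdd v))) hconj (fun w h => hfree _ h) hw₀
  refine ⟨A, y, ?_, h2⟩
  rw [h1, Nat.card_eq_fintype_card, Fintype.card_multiplicative]
  simp [ZMod.card]

end general

/-! ### packed matrices -/

/-- entry of a packed matrix (3 bits per entry) -/
def eN (A i j : ℕ) : ℕ := (A >>> (3 * (27 * i + j))) &&& 7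

/-- dot product of a row and a column -/
def dotN (A B i j : ℕ) : ℕ := Nat.rec 0 (fun k acc => eN A i k * eN B k j + acc) 27

/-- check of a product -/
def mulCheck (A B C : ℕ) : Bool := allLt 27 fun i => allLt 27 fun j => dotN A B i j % 5 == eN C i j

/-- the matrix -/
def ofN (A : ℕ) : Matrix I27 I27 (ZMod 5) := Matrix.of fun x y => ((eN A (code x) (code y) : ℕ) : ZMod 5)

theorem ofN_apply (A : ℕ) (x y : I27) : ofN A x y = ((eN A (code x) (code y) : ℕ) : ZMod 5) := rfl

/-- the indices -/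
def eI : I27 ≃ Fin 27 where
  toFun x := ⟨code x, code_lt x⟩
  invFun k := dec k
  left_inv := dec_code
  right_inv k := Fin.ext (code_dec k.2)

theorem sum_I27 {R : Type*} [AddCommMonoid R] (f : I27 → R) : ∑ x, f x = ∑ k ∈ Finset.range 27, f (dec k) := by
  rw [Finset.sum_range fun k => f (dec k)]
  exact Fintype.sum_equiv eI _ _ fun x => congrArg f (dec_code x).symm

theorem sum_rec (f : ℕ → ℕ) (n : ℕ) :
    (Nat.rec 0 (fun k acc => f k + acc) n : ℕ) = ∑ k ∈ Finset.range n, f k := by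
  induction n with
  | zero => rfl
  | succ n ih =>
    rw [Finset.sum_range_succ, ← ih]
    exact Nat.add_comm _ _

theorem dotN_eq (A B i j : ℕ) : dotN A B i j = ∑ k ∈ Finset.range 27, eN A i k * eN B k j := by
  unfold dotN
  exact sum_rec (fun k => eN A i k * eN B k j) 27

theorem cast_eq_of_mod {a b : ℕ} (h : a % 5 = b) : (a : ZMod 5) = (b : ZMod 5) := by
  rw [← h, ZMod.natCast_mod]

theorem ofN_mul {A B C : ℕ} (h : mulCheck A B C = true) : ofN A * ofN B = ofN C := by
  ext x y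
  have h1 := allLt_spec (allLt_spec h _ (code_lt x)) _ (code_lt y)
  rw [beq_iff_eq] at h1
  rw [Matrix.mul_apply, ofN_apply, ← cast_eq_of_mod h1, dotN_eq, sum_I27, Nat.cast_sum]
  refine Finset.sum_congr rfl fun k hk => ?_
  rw [ofN_apply, ofN_apply, code_dec (Finset.mem_range.mp hk), Nat.cast_mul]

/-- the value of the entry of `N_r` as a natural number modulo 5 -/
def sgM (r j : ℕ) : ℕ := if ent r j < 32 then 0 else if ent r j < 64 then 1 else 4

theorem cast_sgM (r j : ℕ) : ((sgM r j : ℕ) : ZMod 5) = ((sgN r j : ℤ) : ZMod 5) := by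
  unfold sgM sgN
  split_ifs
  · rfl
  · rfl
  · decide

/-- check of `A = z_r(t) B` -/
def rowCheck (r t A B : ℕ) : Bool :=
  allLt 27 fun i => allLt 27 fun j => (eN B i j + t * (sgM r i * eN B (srN r i) j)) % 5 == eN A i j

theorem ofN_row {r t A B : ℕ} (hr : r < 72) (h : rowCheck r t A B = true) :
    zM r (t : ZMod 5) * ofN B = ofN A := by
  ext x y
  have h1 := allLt_spec (allLt_spec h _ (code_lt x)) _ (code_lt y)
  rw [beq_iff_eq] at h1
  rw [zM_def, add_mul, one_mul, smul_mul_assoc, Matrix.add_apply, Matrix.smul_apply, Nm_mul_apply, ofN_apply,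
    ofN_apply, ofN_apply, ← cast_eq_of_mod h1, smul_eq_mul, code_sr hr]
  push_cast
  rw [cast_sgM]
  rfl

/-- check of `N_r` -/
def nmCheck (r A : ℕ) : Bool :=
  allLt 27 fun i => allLt 27 fun j => eN A i j == (if j = srN r i then sgM r i else 0)

theorem ofN_nm {r A : ℕ} (hr : r < 72) (h : nmCheck r A = true) : Nm (ZMod 5) r = ofN A := by
  ext x y
  have h1 := allLt_spec (allLt_spec h _ (code_lt x)) _ (code_lt y)
  rw [beq_iff_eq] at h1
  have h2 : (y = sr r x) ↔ code y = srN r (code x) := by rw [← code_sr hr, code_eq_iff]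
  rw [Nm_apply, ofN_apply, h1]
  by_cases h3 : y = sr r x
  · rw [if_pos h3, if_pos (h2.mp h3), cast_sgM]; rfl
  · rw [if_neg h3, if_neg (fun h => h3 (h2.mpr h))]; simp

/-- check of the identity -/
def oneCheck (A : ℕ) : Bool := allLt 27 fun i => allLt 27 fun j => eN A i j == (if i = j then 1 else 0)

theorem ofN_one {A : ℕ} (h : oneCheck A = true) : (1 : Matrix I27 I27 (ZMod 5)) = ofN A := by
  ext x y
  have h1 := allLt_spec (allLt_spec h _ (code_lt x)) _ (code_lt y)
  rw [beq_iff_eq] at h1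
  rw [ofN_apply, h1, Matrix.one_apply]
  by_cases h3 : x = y
  · rw [if_pos h3, if_pos (congrArg code h3)]; simp
  · rw [if_neg h3, if_neg (fun h => h3 (code_injective h))]; simp

/-- the entry of a combination of the `N_r` -/
def lcN (r : List (ℕ × ℕ)) (i j : ℕ) : ℕ :=
  List.rec 0 (fun a _ acc => (if j = srN a.1 i then a.2 * sgM a.1 i else 0) + acc) r

theorem lcN_nil (i j : ℕ) : lcN [] i j = 0 := rfl

theorem lcN_cons (a : ℕ × ℕ) (r : List (ℕ × ℕ)) (i j : ℕ) :
    lcN (a :: r) i j = (if j = srN a.1 i then a.2 * sgM a.1 i else 0) + lcN r i j := rfl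

/-- check of a combination of the `N_r` -/
def lcCheck (r : List (ℕ × ℕ)) (A : ℕ) : Bool :=
  allLt 27 fun i => allLt 27 fun j => lcN r i j % 5 == eN A i j

theorem ofN_lc {r : List (ℕ × ℕ)} (hr : ∀ a ∈ r, a.1 < 72) {A : ℕ} (h : lcCheck r A = true) :
    (r.map fun a => ((a.2 : ℕ) : ZMod 5) • Nm (ZMod 5) a.1).sum = ofN A := by
  ext x y
  have h1 := allLt_spec (allLt_spec h _ (code_lt x)) _ (code_lt y)
  rw [beq_iff_eq] at h1
  rw [ofN_apply, ← cast_eq_of_mod h1]
  clear h1 h
  induction r with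
  | nil => simp [lcN_nil]
  | cons a r ih =>
    rw [List.map_cons, List.sum_cons, Matrix.add_apply, ih (fun b hb => hr b (List.mem_cons_of_mem _ hb)), lcN_cons,
      Nat.cast_add, Matrix.smul_apply, Nm_apply, smul_eq_mul]
    congr 1
    have h2 : (y = sr a.1 x) ↔ code y = srN a.1 (code x) := by
      rw [← code_sr (hr a List.mem_cons_self), code_eq_iff]
    by_cases h3 : y = sr a.1 x
    · rw [if_pos h3, if_pos (h2.mp h3), Nat.cast_mul, cast_sgM]; rfl
    · rw [if_neg h3, if_neg (fun h => h3 (h2.mpr h))]; simp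

/-- check of `N_r N_s = 0` -/
def zeroCheck (r s : ℕ) : Bool := allLt 27 fun i => sgN r i * sgN s (srN r i) == 0

theorem nm_mul_nm {r s : ℕ} (hr : r < 72) (h : zeroCheck r s = true) :
    Nm (ZMod 5) r * Nm (ZMod 5) s = 0 := by
  ext x y
  have h1 := allLt_spec h _ (code_lt x)
  rw [beq_iff_eq] at h1
  rw [Nm_mul_Nm, sg_sr hr]
  have h2 : sg r x * sgN s (srN r (code x)) = 0 := h1
  rw [h2]
  simp

theorem pow_of_sq {G : Type*} [Group G] {z : G} {k : ℕ} (h : z ^ (k + 1) = z) : z ^ k = 1 := by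
  rw [pow_succ] at h
  exact mul_eq_right.mp h

end Cfsg.Agent.H65.E65
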