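import Cfsg.Agent.H65.E65.FrobData
import Cfsg.Agent.H421.Act
import Cfsg.Agent.S1054

/-!
# S3650: Frobenius subgroups `5³ : 31` and `5⁵ : 71` of `E₆(5)` (helper65)

`frob31`, `frob71`; `fixes_31`, `fixes_71` : on every nonzero elementary abelian `t`-group, `t ≠ 5`, on which `E₆(5)`
acts, some element of order `31` (`71`) has a fixed point.
-/

set_option autoImplicit false
set_option maxRecDepth 100000

namespace Cfsg.Agent.H65.E65

open Cfsg.Lie Cfsg.Agent.H163.E65 Cfsg.Agent.ChevalleyStructure.E6Min.Tables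
  Cfsg.Agent.ChevalleyStructure.E6Min.Basic Cfsg.Agent.ChevalleyStructure.E6Min.Adjoint
open scoped Matrix MatrixGroups

universe v

/-! ### order 31 -/

/-- the element -/
def az : GL I27 (ZMod 5) := zU 29 ((3 : ℕ) : ZMod 5) * zU 42 ((2 : ℕ) : ZMod 5) * zU 39 ((3 : ℕ) : ZMod 5) * zU 32 ((2 : ℕ) : ZMod 5)

theorem az_mem : az ∈ Zgrp (ZMod 5) :=
  (mul_mem (mul_mem (mul_mem (zU_mem _ _) (zU_mem _ _)) (zU_mem _ _)) (zU_mem _ _))

theorem az_coe : ((az : GL I27 (ZMod 5)) : Matrix I27 I27 (ZMod 5)) = ofN aw4 := by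
  have h0 : zM 32 ((2 : ℕ) : ZMod 5) * ofN aw0 = ofN aw1 := ofN_row (by norm_num) (by decide +kernel)
  have h1 : zM 39 ((3 : ℕ) : ZMod 5) * ofN aw1 = ofN aw2 := ofN_row (by norm_num) (by decide +kernel)
  have h2 : zM 42 ((2 : ℕ) : ZMod 5) * ofN aw2 = ofN aw3 := ofN_row (by norm_num) (by decide +kernel)
  have h3 : zM 29 ((3 : ℕ) : ZMod 5) * ofN aw3 = ofN aw4 := ofN_row (by norm_num) (by decide +kernel)
  have e : (1 : Matrix I27 I27 (ZMod 5)) = ofN aw0 := ofN_one (by decide +kernel)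
  unfold az
  simp only [Units.val_mul]
  rw [coe_zU (show 29 < 72 by norm_num), coe_zU (show 42 < 72 by norm_num), coe_zU (show 39 < 72 by norm_num), coe_zU (show 32 < 72 by norm_num)]
  simp only [mul_assoc]
  rw [← mul_one (zM 32 ((2 : ℕ) : ZMod 5)), e, h0, h1, h2, h3]

theorem az_pow : az ^ 31 = 1 := by
  have h2 : ofN aw4 * ofN aw4 = ofN ap2 := ofN_mul (by decide +kernel)
  have h4 : ofN ap2 * ofN ap2 = ofN ap4 := ofN_mul (by decide +kernel)
  have h8 : ofN ap4 * ofN ap4 = ofN ap8 := ofN_mul (by decide +kernel)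
  have h16 : ofN ap8 * ofN ap8 = ofN ap16 := ofN_mul (by decide +kernel)
  have hl : ofN ap16 * ofN ap16 = ofN aw4 := ofN_mul (by decide +kernel)
  apply pow_of_sq
  apply Units.ext
  rw [Units.val_pow_eq_pow_val, az_coe]
  have g2 : ofN aw4 ^ 2 = ofN ap2 := by rw [pow_two, h2]
  have g4 : ofN aw4 ^ 4 = ofN ap4 := by rw [show 4 = 2 + 2 from rfl, pow_add, g2, h4]
  have g8 : ofN aw4 ^ 8 = ofN ap8 := by rw [show 8 = 4 + 4 from rfl, pow_add, g4, h8]
  have g16 : ofN aw4 ^ 16 = ofN ap16 := by rw [show 16 = 8 + 8 from rfl, pow_add, g8, h16]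
  rw [show 31 + 1 = 16 + 16 from rfl, pow_add, g16, hl]

/-- the roots -/
def ar : Fin 3 → ℕ := ![56, 57, 58]

theorem ah0 : ∀ i j, Nm (ZMod 5) (ar i) * Nm (ZMod 5) (ar j) = 0 := by
  intro i j
  refine nm_mul_nm ?_ ?_
  · revert i; decide
  · revert i j; decide +kernel

theorem ahM : ∀ j, ((az : GL I27 (ZMod 5)) : Matrix I27 I27 (ZMod 5)) * Nm (ZMod 5) (ar j) =
    lin ar (fun i => (!![2, 3, 1; 2, 1, 2; 0, 3, 2] : Matrix (Fin 3) (Fin 3) (ZMod 5)) i j) * ((az : GL I27 (ZMod 5)) : Matrix I27 I27 (ZMod 5)) := by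
  intro j
  rw [az_coe]
  fin_cases j
  · have h1 : Nm (ZMod 5) 56 = ofN an0 := ofN_nm (by norm_num) (by decide +kernel)
    have h2 : (([(56, 2), (57, 2), (58, 0)] : List (ℕ × ℕ)).map fun a => ((a.2 : ℕ) : ZMod 5) • Nm (ZMod 5) a.1).sum = ofN ab0 :=
      ofN_lc (by decide) (by decide +kernel)
    have h3 : ofN aw4 * ofN an0 = ofN ac0 := ofN_mul (by decide +kernel)
    have h4 : ofN ab0 * ofN aw4 = ofN ac0 := ofN_mul (by decide +kernel)
    have h5 : lin ar (fun i => (!![2, 3, 1; 2, 1, 2; 0, 3, 2] : Matrix (Fin 3) (Fin 3) (ZMod 5)) i 0) = ofN ab0 := by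
      rw [← h2]
      simp only [lin, Fin.sum_univ_succ, Fin.sum_univ_zero, List.map_cons, List.map_nil, List.sum_cons, List.sum_nil]
      rfl
    exact (congrArg (ofN aw4 * ·) h1).trans (h3.trans (h4.symm.trans (congrArg (· * ofN aw4) h5.symm)))
  · have h1 : Nm (ZMod 5) 57 = ofN an1 := ofN_nm (by norm_num) (by decide +kernel)
    have h2 : (([(56, 3), (57, 1), (58, 3)] : List (ℕ × ℕ)).map fun a => ((a.2 : ℕ) : ZMod 5) • Nm (ZMod 5) a.1).sum = ofN ab1 :=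
      ofN_lc (by decide) (by decide +kernel)
    have h3 : ofN aw4 * ofN an1 = ofN ac1 := ofN_mul (by decide +kernel)
    have h4 : ofN ab1 * ofN aw4 = ofN ac1 := ofN_mul (by decide +kernel)
    have h5 : lin ar (fun i => (!![2, 3, 1; 2, 1, 2; 0, 3, 2] : Matrix (Fin 3) (Fin 3) (ZMod 5)) i 1) = ofN ab1 := by
      rw [← h2]
      simp only [lin, Fin.sum_univ_succ, Fin.sum_univ_zero, List.map_cons, List.map_nil, List.sum_cons, List.sum_nil]
      rfl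
    exact (congrArg (ofN aw4 * ·) h1).trans (h3.trans (h4.symm.trans (congrArg (· * ofN aw4) h5.symm)))
  · have h1 : Nm (ZMod 5) 58 = ofN an2 := ofN_nm (by norm_num) (by decide +kernel)
    have h2 : (([(56, 1), (57, 2), (58, 2)] : List (ℕ × ℕ)).map fun a => ((a.2 : ℕ) : ZMod 5) • Nm (ZMod 5) a.1).sum = ofN ab2 :=
      ofN_lc (by decide) (by decide +kernel)
    have h3 : ofN aw4 * ofN an2 = ofN ac2 := ofN_mul (by decide +kernel)
    have h4 : ofN ab2 * ofN aw4 = ofN ac2 := ofN_mul (by decide +kernel)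
    have h5 : lin ar (fun i => (!![2, 3, 1; 2, 1, 2; 0, 3, 2] : Matrix (Fin 3) (Fin 3) (ZMod 5)) i 2) = ofN ab2 := by
      rw [← h2]
      simp only [lin, Fin.sum_univ_succ, Fin.sum_univ_zero, List.map_cons, List.map_nil, List.sum_cons, List.sum_nil]
      rfl
    exact (congrArg (ofN aw4 * ·) h1).trans (h3.trans (h4.symm.trans (congrArg (· * ofN aw4) h5.symm)))

theorem frob31 : ∃ (A : Subgroup L5) (z : L5), Nat.card A = 5 ^ 3 ∧ orderOf z = 31 ∧ (∀ a ∈ A, z * a * z⁻¹ ∈ A) ∧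
    ∀ i, 0 < i → i < 31 → ∀ a ∈ A, z ^ i * a = a * z ^ i → a = 1 :=
  frob_of (by norm_num) (r := ar) (by decide) (by decide) ah0 (by norm_num) ⟨az, az_mem⟩ (Subtype.ext az_pow)
    !![2, 3, 1; 2, 1, 2; 0, 3, 2] !![1, 0, 4; 2, 4, 0; 4, 3, 1] ahM (by decide)

/-! ### order 71 -/

/-- the element -/
def bz : GL I27 (ZMod 5) := zU 34 ((4 : ℕ) : ZMod 5) * zU 37 ((4 : ℕ) : ZMod 5) * zU 36 ((1 : ℕ) : ZMod 5) * zU 42 ((4 : ℕ) : ZMod 5) * zU 35 ((3 : ℕ) : ZMod 5) * zU 32 ((2 : ℕ) : ZMod 5) * zU 39 ((1 : ℕ) : ZMod 5) * zU 29 ((4 : ℕ) : ZMod 5)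

theorem bz_mem : bz ∈ Zgrp (ZMod 5) :=
  (mul_mem (mul_mem (mul_mem (mul_mem (mul_mem (mul_mem (mul_mem (zU_mem _ _) (zU_mem _ _)) (zU_mem _ _)) (zU_mem _ _)) (zU_mem _ _)) (zU_mem _ _)) (zU_mem _ _)) (zU_mem _ _))

theorem bz_coe : ((bz : GL I27 (ZMod 5)) : Matrix I27 I27 (ZMod 5)) = ofN bw8 := by
  have h0 : zM 29 ((4 : ℕ) : ZMod 5) * ofN bw0 = ofN bw1 := ofN_row (by norm_num) (by decide +kernel)
  have h1 : zM 39 ((1 : ℕ) : ZMod 5) * ofN bw1 = ofN bw2 := ofN_row (by norm_num) (by decide +kernel)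
  have h2 : zM 32 ((2 : ℕ) : ZMod 5) * ofN bw2 = ofN bw3 := ofN_row (by norm_num) (by decide +kernel)
  have h3 : zM 35 ((3 : ℕ) : ZMod 5) * ofN bw3 = ofN bw4 := ofN_row (by norm_num) (by decide +kernel)
  have h4 : zM 42 ((4 : ℕ) : ZMod 5) * ofN bw4 = ofN bw5 := ofN_row (by norm_num) (by decide +kernel)
  have h5 : zM 36 ((1 : ℕ) : ZMod 5) * ofN bw5 = ofN bw6 := ofN_row (by norm_num) (by decide +kernel)
  have h6 : zM 37 ((4 : ℕ) : ZMod 5) * ofN bw6 = ofN bw7 := ofN_row (by norm_num) (by decide +kernel)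
  have h7 : zM 34 ((4 : ℕ) : ZMod 5) * ofN bw7 = ofN bw8 := ofN_row (by norm_num) (by decide +kernel)
  have e : (1 : Matrix I27 I27 (ZMod 5)) = ofN bw0 := ofN_one (by decide +kernel)
  unfold bz
  simp only [Units.val_mul]
  rw [coe_zU (show 34 < 72 by norm_num), coe_zU (show 37 < 72 by norm_num), coe_zU (show 36 < 72 by norm_num), coe_zU (show 42 < 72 by norm_num), coe_zU (show 35 < 72 by norm_num), coe_zU (show 32 < 72 by norm_num), coe_zU (show 39 < 72 by norm_num), coe_zU (show 29 < 72 by norm_num)]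
  simp only [mul_assoc]
  rw [← mul_one (zM 29 ((4 : ℕ) : ZMod 5)), e, h0, h1, h2, h3, h4, h5, h6, h7]

theorem bz_pow : bz ^ 71 = 1 := by
  have h2 : ofN bw8 * ofN bw8 = ofN bp2 := ofN_mul (by decide +kernel)
  have h4 : ofN bp2 * ofN bp2 = ofN bp4 := ofN_mul (by decide +kernel)
  have h8 : ofN bp4 * ofN bp4 = ofN bp8 := ofN_mul (by decide +kernel)
  have h16 : ofN bp8 * ofN bp8 = ofN bp16 := ofN_mul (by decide +kernel)
  have h32 : ofN bp16 * ofN bp16 = ofN bp32 := ofN_mul (by decide +kernel)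
  have h64 : ofN bp32 * ofN bp32 = ofN bp64 := ofN_mul (by decide +kernel)
  have hl : ofN bp64 * ofN bp8 = ofN bw8 := ofN_mul (by decide +kernel)
  apply pow_of_sq
  apply Units.ext
  rw [Units.val_pow_eq_pow_val, bz_coe]
  have g2 : ofN bw8 ^ 2 = ofN bp2 := by rw [pow_two, h2]
  have g4 : ofN bw8 ^ 4 = ofN bp4 := by rw [show 4 = 2 + 2 from rfl, pow_add, g2, h4]
  have g8 : ofN bw8 ^ 8 = ofN bp8 := by rw [show 8 = 4 + 4 from rfl, pow_add, g4, h8]
  have g16 : ofN bw8 ^ 16 = ofN bp16 := by rw [show 16 = 8 + 8 from rfl, pow_add, g8, h16]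
  have g32 : ofN bw8 ^ 32 = ofN bp32 := by rw [show 32 = 16 + 16 from rfl, pow_add, g16, h32]
  have g64 : ofN bw8 ^ 64 = ofN bp64 := by rw [show 64 = 32 + 32 from rfl, pow_add, g32, h64]
  rw [show 71 + 1 = 64 + 8 from rfl, pow_add, g64, g8, hl]

/-- the roots -/
def br : Fin 5 → ℕ := ![56, 57, 58, 59, 60]

theorem bh0 : ∀ i j, Nm (ZMod 5) (br i) * Nm (ZMod 5) (br j) = 0 := by
  intro i j
  refine nm_mul_nm ?_ ?_
  · revert i; decide
  · revert i j; decide +kernel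

theorem bhM : ∀ j, ((bz : GL I27 (ZMod 5)) : Matrix I27 I27 (ZMod 5)) * Nm (ZMod 5) (br j) =
    lin br (fun i => (!![1, 4, 0, 0, 0; 4, 4, 2, 0, 0; 0, 2, 2, 4, 2; 0, 4, 4, 1, 3; 0, 0, 0, 1, 4] : Matrix (Fin 5) (Fin 5) (ZMod 5)) i j) * ((bz : GL I27 (ZMod 5)) : Matrix I27 I27 (ZMod 5)) := by
  intro j
  rw [bz_coe]
  fin_cases j
  · have h1 : Nm (ZMod 5) 56 = ofN bn0 := ofN_nm (by norm_num) (by decide +kernel)
    have h2 : (([(56, 1), (57, 4), (58, 0), (59, 0), (60, 0)] : List (ℕ × ℕ)).map fun a => ((a.2 : ℕ) : ZMod 5) • Nm (ZMod 5) a.1).sum = ofN bb0 :=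
      ofN_lc (by decide) (by decide +kernel)
    have h3 : ofN bw8 * ofN bn0 = ofN bc0 := ofN_mul (by decide +kernel)
    have h4 : ofN bb0 * ofN bw8 = ofN bc0 := ofN_mul (by decide +kernel)
    have h5 : lin br (fun i => (!![1, 4, 0, 0, 0; 4, 4, 2, 0, 0; 0, 2, 2, 4, 2; 0, 4, 4, 1, 3; 0, 0, 0, 1, 4] : Matrix (Fin 5) (Fin 5) (ZMod 5)) i 0) = ofN bb0 := by
      rw [← h2]
      simp only [lin, Fin.sum_univ_succ, Fin.sum_univ_zero, List.map_cons, List.map_nil, List.sum_cons, List.sum_nil]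
      rfl
    exact (congrArg (ofN bw8 * ·) h1).trans (h3.trans (h4.symm.trans (congrArg (· * ofN bw8) h5.symm)))
  · have h1 : Nm (ZMod 5) 57 = ofN bn1 := ofN_nm (by norm_num) (by decide +kernel)
    have h2 : (([(56, 4), (57, 4), (58, 2), (59, 4), (60, 0)] : List (ℕ × ℕ)).map fun a => ((a.2 : ℕ) : ZMod 5) • Nm (ZMod 5) a.1).sum = ofN bb1 :=
      ofN_lc (by decide) (by decide +kernel)
    have h3 : ofN bw8 * ofN bn1 = ofN bc1 := ofN_mul (by decide +kernel)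
    have h4 : ofN bb1 * ofN bw8 = ofN bc1 := ofN_mul (by decide +kernel)
    have h5 : lin br (fun i => (!![1, 4, 0, 0, 0; 4, 4, 2, 0, 0; 0, 2, 2, 4, 2; 0, 4, 4, 1, 3; 0, 0, 0, 1, 4] : Matrix (Fin 5) (Fin 5) (ZMod 5)) i 1) = ofN bb1 := by
      rw [← h2]
      simp only [lin, Fin.sum_univ_succ, Fin.sum_univ_zero, List.map_cons, List.map_nil, List.sum_cons, List.sum_nil]
      rfl
    exact (congrArg (ofN bw8 * ·) h1).trans (h3.trans (h4.symm.trans (congrArg (· * ofN bw8) h5.symm)))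
  · have h1 : Nm (ZMod 5) 58 = ofN bn2 := ofN_nm (by norm_num) (by decide +kernel)
    have h2 : (([(56, 0), (57, 2), (58, 2), (59, 4), (60, 0)] : List (ℕ × ℕ)).map fun a => ((a.2 : ℕ) : ZMod 5) • Nm (ZMod 5) a.1).sum = ofN bb2 :=
      ofN_lc (by decide) (by decide +kernel)
    have h3 : ofN bw8 * ofN bn2 = ofN bc2 := ofN_mul (by decide +kernel)
    have h4 : ofN bb2 * ofN bw8 = ofN bc2 := ofN_mul (by decide +kernel)
    have h5 : lin br (fun i => (!![1, 4, 0, 0, 0; 4, 4, 2, 0, 0; 0, 2, 2, 4, 2; 0, 4, 4, 1, 3; 0, 0, 0, 1, 4] : Matrix (Fin 5) (Fin 5) (ZMod 5)) i 2) = ofN bb2 := by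
      rw [← h2]
      simp only [lin, Fin.sum_univ_succ, Fin.sum_univ_zero, List.map_cons, List.map_nil, List.sum_cons, List.sum_nil]
      rfl
    exact (congrArg (ofN bw8 * ·) h1).trans (h3.trans (h4.symm.trans (congrArg (· * ofN bw8) h5.symm)))
  · have h1 : Nm (ZMod 5) 59 = ofN bn3 := ofN_nm (by norm_num) (by decide +kernel)
    have h2 : (([(56, 0), (57, 0), (58, 4), (59, 1), (60, 1)] : List (ℕ × ℕ)).map fun a => ((a.2 : ℕ) : ZMod 5) • Nm (ZMod 5) a.1).sum = ofN bb3 :=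
      ofN_lc (by decide) (by decide +kernel)
    have h3 : ofN bw8 * ofN bn3 = ofN bc3 := ofN_mul (by decide +kernel)
    have h4 : ofN bb3 * ofN bw8 = ofN bc3 := ofN_mul (by decide +kernel)
    have h5 : lin br (fun i => (!![1, 4, 0, 0, 0; 4, 4, 2, 0, 0; 0, 2, 2, 4, 2; 0, 4, 4, 1, 3; 0, 0, 0, 1, 4] : Matrix (Fin 5) (Fin 5) (ZMod 5)) i 3) = ofN bb3 := by
      rw [← h2]
      simp only [lin, Fin.sum_univ_succ, Fin.sum_univ_zero, List.map_cons, List.map_nil, List.sum_cons, List.sum_nil]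
      rfl
    exact (congrArg (ofN bw8 * ·) h1).trans (h3.trans (h4.symm.trans (congrArg (· * ofN bw8) h5.symm)))
  · have h1 : Nm (ZMod 5) 60 = ofN bn4 := ofN_nm (by norm_num) (by decide +kernel)
    have h2 : (([(56, 0), (57, 0), (58, 2), (59, 3), (60, 4)] : List (ℕ × ℕ)).map fun a => ((a.2 : ℕ) : ZMod 5) • Nm (ZMod 5) a.1).sum = ofN bb4 :=
      ofN_lc (by decide) (by decide +kernel)
    have h3 : ofN bw8 * ofN bn4 = ofN bc4 := ofN_mul (by decide +kernel)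
    have h4 : ofN bb4 * ofN bw8 = ofN bc4 := ofN_mul (by decide +kernel)
    have h5 : lin br (fun i => (!![1, 4, 0, 0, 0; 4, 4, 2, 0, 0; 0, 2, 2, 4, 2; 0, 4, 4, 1, 3; 0, 0, 0, 1, 4] : Matrix (Fin 5) (Fin 5) (ZMod 5)) i 4) = ofN bb4 := by
      rw [← h2]
      simp only [lin, Fin.sum_univ_succ, Fin.sum_univ_zero, List.map_cons, List.map_nil, List.sum_cons, List.sum_nil]
      rfl
    exact (congrArg (ofN bw8 * ·) h1).trans (h3.trans (h4.symm.trans (congrArg (· * ofN bw8) h5.symm)))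

theorem frob71 : ∃ (A : Subgroup L5) (z : L5), Nat.card A = 5 ^ 5 ∧ orderOf z = 71 ∧ (∀ a ∈ A, z * a * z⁻¹ ∈ A) ∧
    ∀ i, 0 < i → i < 71 → ∀ a ∈ A, z ^ i * a = a * z ^ i → a = 1 :=
  frob_of (by norm_num) (r := br) (by decide) (by decide) bh0 (by norm_num) ⟨bz, bz_mem⟩ (Subtype.ext bz_pow)
    !![1, 4, 0, 0, 0; 4, 4, 2, 0, 0; 0, 2, 2, 4, 2; 0, 4, 4, 1, 3; 0, 0, 0, 1, 4] !![1, 4, 2, 0, 2; 4, 0, 0, 0, 0; 2, 0, 1, 0, 1; 4, 0, 4, 4, 0; 2, 0, 2, 2, 2] bhM (by decide)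

/-! ### fixed points -/

theorem simple5 : IsSimpleGroup L5 := (Cfsg.Agent.S1054.result (F := ZMod 5) chevE6 (by simp)).1

theorem fixes_of {n p t : ℕ} (hn : 0 < n) (hp : p.Prime) (h : ∃ (A : Subgroup L5) (z : L5), Nat.card A = 5 ^ n ∧
    orderOf z = p ∧ (∀ a ∈ A, z * a * z⁻¹ ∈ A) ∧ ∀ i, 0 < i → i < p → ∀ a ∈ A, z ^ i * a = a * z ^ i → a = 1)
    (ht : t.Prime) (h5 : t ≠ 5) : Fixes.{0, v} L5 t p := by
  obtain ⟨A, z, hA, hz, hn1, hn2⟩ := h
  intro V _ _ _ ρ hV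
  by_contra hcon
  push Not at hcon
  have hfin : Finite A := Nat.finite_of_card_ne_zero (by rw [hA]; positivity)
  have h1 := H421.Act.frob_trivial ρ A z p hp.pos (by rw [← hz]; exact pow_orderOf_eq_one z) hn1 hn2
    (fun v hv => by
      by_contra h0
      exact hcon z hz v h0 hv)
    (fun v hv => by
      rw [hA] at hv
      have hcop : (5 ^ n).Coprime t := Nat.Coprime.pow_left n ((Nat.coprime_primes (by norm_num) ht).mpr h5.symm)
      have h2 : addOrderOf v ∣ 1 := by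
        rw [← hcop]
        exact Nat.dvd_gcd (addOrderOf_dvd_of_nsmul_eq_zero hv) (addOrderOf_dvd_of_nsmul_eq_zero (hV v))
      exact AddMonoid.addOrderOf_eq_one_iff.mp (Nat.dvd_one.mp h2))
  have hs := simple5
  have hA1 : A ≠ ⊥ := by
    rintro rfl
    rw [Subgroup.card_bot] at hA
    have := Nat.one_lt_pow hn.ne' (by norm_num : 1 < 5)
    omega
  have hker : (MonoidHom.ker ρ) = ⊤ := by
    rcases hs.eq_bot_or_eq_top_of_normal (MonoidHom.ker ρ) inferInstance with h2 | h2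
    · exfalso
      apply hA1
      rw [eq_bot_iff, ← h2]
      intro a ha
      rw [MonoidHom.mem_ker]
      exact AddMonoidHom.ext (h1 a ha)
    · exact h2
  obtain ⟨v, hv⟩ := exists_ne (0 : V)
  refine hcon z hz v hv ?_
  have h3 : z ∈ MonoidHom.ker ρ := by rw [hker]; exact Subgroup.mem_top z
  rw [MonoidHom.mem_ker] at h3
  rw [h3]; rfl

theorem fixes_31 {t : ℕ} (ht : t.Prime) (h5 : t ≠ 5) (_h31 : t ≠ 31) : Fixes.{0, v} L5 t 31 :=
  fixes_of (n := 3) (by norm_num) (by norm_num) frob31 ht h5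

theorem fixes_71 {t : ℕ} (ht : t.Prime) (h5 : t ≠ 5) (_h71 : t ≠ 71) : Fixes.{0, v} L5 t 71 :=
  fixes_of (n := 5) (by norm_num) (by norm_num) frob71 ht h5

end Cfsg.Agent.H65.E65
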